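import Cfsg.Agent.H7.ProdER
import Cfsg.Agent.H2.Glaub2
import Cfsg.Agent.H1.FusCls
import Cfsg.Agent.H9.Comp

/-!
# `Z(S) ≤ Z(F) foc(F)` for odd `p`, and `C_S(T) ≤ T` when `C_S(E) ≤ T`
-/

set_option autoImplicit false

open Equiv

namespace Cfsg.FusionSystem

open Cfsg.Fus Cfsg.Agent

theorem exists_avg7 {Γ A : Type*} [Group Γ] [CommGroup A] (φ : Γ →* MulAut A) (H : Subgroup Γ)
    [H.FiniteIndex] (K : Subgroup A) {a : A} (ha : ∀ h ∈ H, φ h a = a)
    (hK : ∀ g, a⁻¹ * φ g a ∈ K) : ∃ b, (∀ g, φ g b = b) ∧ (a ^ H.index)⁻¹ * b ∈ K := by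
  classical
  have := Fintype.ofFinite (Γ ⧸ H)
  refine ⟨∏ q : Γ ⧸ H, φ q.out a, fun g => ?_, ?_⟩
  · rw [map_prod]
    refine Fintype.prod_equiv (MulAction.toPerm g) _ _ fun q => ?_
    obtain ⟨h, hh⟩ := QuotientGroup.mk_out_eq_mul H (g * q.out)
    have : (MulAction.toPerm g) q = ((g * q.out : Γ) : Γ ⧸ H) := by
      conv_lhs => rw [← QuotientGroup.out_eq' q]
      rfl
    rw [this, hh, map_mul, map_mul, MulAut.mul_apply, MulAut.mul_apply, ha h h.2]
  · rw [Subgroup.index, Nat.card_eq_fintype_card, ← Finset.card_univ, ← Finset.prod_const,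
      ← Finset.prod_inv_distrib, ← Finset.prod_mul_distrib]
    exact K.prod_mem fun q _ => hK _

universe u

variable {Ω : Type u} [Group Ω] {S T Q : Subgroup Ω} [Finite S] {F : FusionSystem S}
  {E : FusionSystem T} {p : ℕ} [Fact p.Prime]

open scoped IsMulCommutative in
/-- An element of `Z(S)` has, up to the focal subgroup and a power prime to `p`, a representative
fixed by the automorphisms of a normal subgroup `Q ≥ Z(S)`. -/
theorem exists_fixed_of_zc7 (hF : F.IsSaturated p) (hS : IsPGroup p S) (hQ : Q ≤ S)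
    (hn : S ≤ Subgroup.normalizer (Q : Set Ω)) {x : Ω} (hx : x ∈ H1.zc S) (hxQ : x ∈ Q) :
    ∃ m : ℕ, m.Coprime p ∧ ∃ y ∈ H1.zc S, (∀ σ, F.Iso Q Q σ → σ y = y) ∧
      (x ^ m)⁻¹ * y ∈ F.focalSubgroup := by
  have hle : F.stab Q ≤ autStab (H1.zc Q) := fun σ hσ =>
    have h := (mem_stab hQ).1 hσ
    ((h.isMap.mono inf_le_left).iso_of_img (H1.img_zc h)).mem_autStab
  let φ : F.stab Q →* MulAut (H1.zc Q) := (resHom (H1.zc Q)).comp (Subgroup.inclusion hle)
  have hφ : ∀ (g : F.stab Q) (a : H1.zc Q), (φ g a : Ω) = (g : Perm Ω) a := fun g a => rfl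
  have ha := (F.isFullyNormalized_of_le_normalizer hQ hn).isFullyAutomized hF hS
  have hnd := (((F.finMod_stab hQ).sylMod_iff_not_dvd
    (inf_le_left.trans (fixP_le_innS S Q))).1 ha.sylMod).2.2
  have : ((innS S Q).subgroupOf (F.stab Q)).FiniteIndex :=
    ⟨fun h => hnd (by rw [Subgroup.relIndex, h]; exact dvd_zero p)⟩
  obtain ⟨b, h1, h2⟩ := exists_avg7 φ ((innS S Q).subgroupOf (F.stab Q))
    (F.focalSubgroup.subgroupOf (H1.zc Q)) (a := ⟨x, hxQ, fun y hy => hx.2 y (hQ hy)⟩)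
    (fun h hh => by
      obtain ⟨s, hs, -, he⟩ := Fus.mem_innS.1 (Subgroup.mem_subgroupOf.1 hh)
      refine Subtype.ext ?_
      rw [hφ, he x hxQ, hx.2 s hs, mul_inv_cancel_right])
    (fun g => ((mem_stab hQ).1 g.2).isMap.inv_mul_mem_focal hxQ)
  have h3 : ∀ σ, F.Iso Q Q σ → σ b = b := fun σ hσ => congrArg Subtype.val (h1 ⟨σ, hσ.mem_stab⟩)
  refine ⟨_, ((Nat.Prime.coprime_iff_not_dvd Fact.out).2 hnd).symm, b, ⟨hQ b.2.1, fun s hs => ?_⟩,
    h3, h2⟩
  exact mul_inv_eq_iff_eq_mul.1 (h3 _ ((mem_stab hQ).1 (F.innS_le_stab hQ (cj_mem_innS hs (hn hs)))))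

theorem zc_le_center_sup_focal7 (hF : F.IsSaturated p) (hS : IsPGroup p S)
    (hp : p ≠ 2 ∨ ¬ H2.FWit 2 F) : H1.zc S ≤ F.center ⊔ F.focalSubgroup := fun x hx => by
  obtain ⟨m, hm, y, hy, h1, h2⟩ := exists_fixed_of_zc7 hF hS (H2.thompsonA_le S)
    (Subgroup.le_normalizer.trans (H2.normalizer_le_normalizer_thompsonA S)) hx
    (H2.center_le_thompsonA S hx)
  have hc : F.IsCentral (Subgroup.zpowers y) :=
    H2.isCentral_of_fix_thompsonA hF hS hp (Subgroup.zpowers_le.2 hy) fun σ hσ => by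
      rintro _ ⟨n, rfl⟩
      show σ (y ^ n) = y ^ n
      rw [hσ.homOn.map_zpow (H2.center_le_thompsonA S hy), h1 σ hσ]
  obtain ⟨k, hk⟩ := hS ⟨x, hx.1⟩
  refine mem_of_pow_of_coprime (hm.pow_right k) ?_ ?_
  · have := Subgroup.mul_mem_sup (hc.le_center (Subgroup.mem_zpowers y)) (Subgroup.inv_mem _ h2)
    simpa using this
  · rw [show x ^ p ^ k = 1 from congrArg Subtype.val hk]
    exact Subgroup.one_mem _

theorem IsNormalIn.centralizerIn_le_of_cS_le (h : E.IsNormalIn F p) (hS : IsPGroup p S)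
    (hc : F.cS E p ≤ T) (hp : p ≠ 2) : centralizerIn S T ≤ T := fun x hx => by
  have hR : T ⊔ Subgroup.zpowers x ≤ T ⊔ centralizerIn S T :=
    sup_le_sup_left (Subgroup.zpowers_le.2 hx) T
  have hRS := hR.trans (sup_le h.le inf_le_left)
  have := finite_of_le hRS
  have hp' := isPGroup_of_le hS hRS
  obtain ⟨D, hD, hsub, hi⟩ := h.exists_prod hS le_sup_left hRS
  have hz : x ∈ H1.zc (T ⊔ Subgroup.zpowers x) := by
    refine ⟨Subgroup.mem_sup_right (Subgroup.mem_zpowers x), ?_⟩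
    have : T ⊔ Subgroup.zpowers x ≤ Subgroup.centralizer {x} := by
      refine sup_le (fun t ht => ?_) (Subgroup.zpowers_le.2 ?_)
      · exact Subgroup.mem_centralizer_singleton_iff.2 (hx.2 t ht)
      · exact Subgroup.mem_centralizer_singleton_iff.2 rfl
    exact fun y hy => Subgroup.mem_centralizer_singleton_iff.1 (this hy)
  refine (sup_le ?_ ?_ : D.center ⊔ D.focalSubgroup ≤ T) (zc_le_center_sup_focal7 hD hp' (Or.inl hp) hz)
  · exact (h.le_cS hS ((D.isCentral_center9.cz.of_sub hi.1).of_le hsub)).trans hc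
  · rw [H8.focal_eq_hyp_sup hD hp']
    exact sup_le hi.2.1 ((Subgroup.commutator_mono hR hR).trans (h.commutator_sup_le hS hc))

end Cfsg.FusionSystem
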