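import Cfsg.Agent.H7.Crit
import Cfsg.Agent.H1.FusCls
import Cfsg.Agent.H1.Frattini

/-!
# Fusion systems in which every element is conjugate into the centre
-/

set_option autoImplicit false

open Equiv

namespace Cfsg.FusionSystem

open Cfsg.Fus Cfsg.Agent Cfsg.Agent.H1

variable {Ω : Type*} [Group Ω] {S P Q : Subgroup Ω} [Finite S] {F : FusionSystem S} {p : ℕ}
  [Fact p.Prime] {σ : Perm Ω}

omit [Finite S] in
theorem mem_cent_zpowers7 {g x : Ω} :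
    g ∈ centralizerIn S (Subgroup.zpowers x) ↔ g ∈ S ∧ g * x = x * g := by
  refine and_congr_right fun _ => ⟨fun h => (h x (Subgroup.mem_zpowers x)).symm, ?_⟩
  rintro h _ ⟨n, rfl⟩
  exact ((show Commute g x from h).zpow_right n).symm

/-- A map sending `x` into `Z(S)` extends to `C_S(x)`. -/
theorem IsSaturated.exists_ext_of_zc7 (hF : F.IsSaturated p) (hS : IsPGroup p S) {x : Ω}
    (hσ : F.IsMap P σ) (hx : x ∈ P) (hz : σ x ∈ zc S) :
    ∃ τ : Perm Ω, F.IsMap (centralizerIn S (Subgroup.zpowers x)) τ ∧ τ x = σ x := by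
  have h1 := (hσ.mono (Subgroup.zpowers_le.2 hx)).iso
  have h2 : img σ (Subgroup.zpowers x) ≤ zc S := by
    rw [h1.homOn.img_zpowers]; exact Subgroup.zpowers_le.2 hz
  obtain ⟨τ, t1, t2⟩ := ((F.isFullyNormalized_of_le_normalizer h1.le_right fun s hs =>
    Subgroup.centralizer_le_normalizer _ fun y hy => ((h2 hy).2 s hs).symm).isReceptive hF
    hS).exists_ext_centralizer h1
  exact ⟨τ, t1.mono le_sup_right, t2 x (Subgroup.mem_zpowers x)⟩

section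

variable (hF : F.IsSaturated p) (hS : IsPGroup p S)
  (h : ∀ x ∈ S, ∃ τ : Perm Ω, F.IsMap (centralizerIn S (Subgroup.zpowers x)) τ ∧ τ x ∈ zc S)
include hF hS h

theorem exists_pow_of_conj7 {z y : Ω} {q : ℕ} (hz : z ∈ zc S) (hσ : F.IsMap P σ) (hzP : z ∈ P)
    (hy : y ∈ S) (e : σ z = y ^ q) : ∃ c ∈ zc S, z = c ^ q := by
  obtain ⟨τ, t1, t2⟩ := h y hy
  have hy' : y ∈ centralizerIn S (Subgroup.zpowers y) := mem_cent_zpowers7.2 ⟨hy, rfl⟩
  have e2 : (τ * σ) z = τ y ^ q := by rw [Perm.mul_apply, e, t1.homOn.map_pow hy']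
  obtain ⟨α, a1, a2⟩ := hF.exists_ext_of_zc7 hS
    ((hσ.mono (Subgroup.zpowers_le.2 hzP)).mul t1 (by
      rintro _ ⟨n, rfl⟩
      show σ (z ^ n) ∈ _
      rw [hσ.homOn.map_zpow hzP, e]
      exact Subgroup.zpow_mem _ (Subgroup.pow_mem _ hy' q) n)) (Subgroup.mem_zpowers z)
    (by rw [e2]; exact Subgroup.pow_mem _ t2 q)
  have a3 := (a1.mono fun s hs => mem_cent_zpowers7.2 ⟨hs, hz.2 s hs⟩).iso_self fun s hs =>
    a1.mem (mem_cent_zpowers7.2 ⟨hs, hz.2 s hs⟩)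
  refine ⟨α⁻¹ (τ y), iso_mem_zc a3.symm t2, ?_⟩
  rw [← a3.symm.homOn.map_pow t2.1, ← e2, ← a2, perm_inv_apply_self]

theorem exists_pow_of_mul7 {t u y : Ω} {q : ℕ} (ht : t ∈ S) (hu : u ∈ zc S) (hy : y ∈ S)
    (e : t ^ q * u = y ^ q) : ∃ c ∈ zc S, u = c ^ q := by
  obtain ⟨τ, t1, t2⟩ := h (y ^ q) (S.pow_mem hy q)
  have hw : y ^ q ∈ centralizerIn S (Subgroup.zpowers (y ^ q)) :=
    mem_cent_zpowers7.2 ⟨S.pow_mem hy q, rfl⟩
  obtain ⟨c, hc, e2⟩ := exists_pow_of_conj7 hF hS h t2 t1.inv (mem_img_of_mem _ hw) hy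
    (perm_inv_apply_self _ _)
  have ht' : t ∈ centralizerIn S (Subgroup.zpowers (y ^ q)) := mem_cent_zpowers7.2 ⟨ht, by
    rw [← e]
    exact ((Commute.refl t).pow_right q).mul_right (hu.2 t ht)⟩
  have hu' : u ∈ centralizerIn S (Subgroup.zpowers (y ^ q)) :=
    mem_cent_zpowers7.2 ⟨hu.1, (hu.2 _ (S.pow_mem hy q)).symm⟩
  have h1 := S.inv_mem (t1.mem ht')
  refine exists_pow_of_conj7 hF hS h hu t1 hu' (S.mul_mem h1 hc.1) ?_
  rw [(show Commute (τ t)⁻¹ c from hc.2 _ h1).mul_pow, ← e2, ← e,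
    t1.homOn.map_mul (Subgroup.pow_mem _ ht' q) hu', t1.homOn.map_pow ht', inv_pow,
    inv_mul_cancel_left]

end

theorem IsSaturated.comm_of_conj_zc7 (hF : F.IsSaturated 2) (hS : IsPGroup 2 S)
    (h : ∀ x ∈ S, ∃ τ : Perm Ω, F.IsMap (centralizerIn S (Subgroup.zpowers x)) τ ∧ τ x ∈ zc S) :
    S ≤ zc S := by
  by_contra hne
  obtain ⟨x, hx, hx'⟩ := SetLike.not_le_iff_exists.1 hne
  have hC : ∀ v ∈ S, v ∈ zc (centralizerIn S (Subgroup.zpowers v)) := fun v hv =>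
    ⟨mem_cent_zpowers7.2 ⟨hv, rfl⟩, fun g hg => (mem_cent_zpowers7.1 hg).2⟩
  obtain ⟨Q₀, ⟨q1, q2⟩, q3⟩ := Set.exists_max_image {Q : Subgroup Ω | Q ≤ S ∧ ¬ zc Q ≤ zc S}
    (fun Q => Nat.card Q) ((finite_subgroups_le S).subset fun _ h => h.1)
    ⟨_, centralizerIn_le _ _, fun h => hx' (h (hC x hx))⟩
  have key : ∀ Q ≤ S, Nat.card Q = Nat.card Q₀ → ∀ v ∈ zc Q, ∀ g ∈ S, g ∉ Q → g * v = v * g →
      v ∈ zc S := fun Q hQ hc v hv g hg hg' e => by
    by_contra hv'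
    have := q3 _ ⟨centralizerIn_le _ _, fun h => hv' (h (hC v (hQ hv.1)))⟩
    exact (card_lt_of_lt_of_finite (lt_of_le_not_ge (fun y hy => mem_cent_zpowers7.2
      ⟨hQ hy, hv.2 y hy⟩) fun h => hg' (h (mem_cent_zpowers7.2 ⟨hg, e⟩)))).not_ge (hc ▸ this)
  have hZ : ∀ Q ≤ S, Nat.card Q = Nat.card Q₀ → ¬ zc Q ≤ zc S → zc S ≤ zc Q := fun Q hQ hc hn z hz => by
    obtain ⟨v, v1, v2⟩ := SetLike.not_le_iff_exists.1 hn
    refine ⟨by_contra fun h' => v2 (key Q hQ hc v v1 z hz.1 h' (hz.2 v (hQ v1.1)).symm),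
      fun y hy => hz.2 y (hQ hy)⟩
  obtain ⟨Q, φ, f1, hQ⟩ := F.exists_fullyNormalized q1
  have hc := f1.card_eq.symm
  replace key := key Q hQ.le hc
  have : Finite (zc S) := finite_of_le (inf_le_left : zc S ≤ S)
  have : Finite (zc Q₀) := finite_of_le (inf_le_left.trans q1)
  have : Finite (zc Q) := finite_of_le (inf_le_left.trans hQ.le)
  have hn : ¬ zc Q ≤ zc S := fun h' => by
    have h1 := card_lt_of_lt_of_finite (lt_of_le_not_ge (hZ _ q1 rfl q2) q2)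
    rw [← (f1.isMap.mono (inf_le_left : zc Q₀ ≤ Q₀)).card_img, img_zc f1] at h1
    exact h1.not_ge (Subgroup.card_le_of_le h')
  replace hZ := hZ Q hQ.le hc hn
  have hlt : Q < S := lt_of_le_of_ne hQ.le fun e => hn (e ▸ le_rfl)
  have hconj : ∀ v ∈ zc Q, ∃ σ, F.Iso Q Q σ ∧ σ v ∈ zc S := fun v hv => by
    obtain ⟨τ, t1, t2⟩ := h v (hQ.le hv.1)
    have t3 := (t1.mono fun y hy => mem_cent_zpowers7.2 ⟨hQ.le hy, hv.2 y hy⟩).iso
    obtain ⟨ψ, s1, s2⟩ := hQ.exists_map_normalizer hF hS t3.symm.isConj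
    obtain ⟨n, n1, n2⟩ := SetLike.exists_of_lt (lt_normalizerIn hS (lt_of_le_of_ne t3.le_right
      fun e => (card_lt_of_lt_of_finite hlt).ne (t3.card_eq.trans (by rw [e]))))
    have t4 := le_normalizerIn t3.le_right (t3.mem hv.1)
    refine ⟨_, t3.trans s2, key _ (iso_mem_zc (t3.trans s2) hv) (ψ n) (s1.mem n1)
      (fun h' => n2 ((s2.mem_iff n).1 h')) ?_⟩
    rw [Perm.mul_apply, ← s1.homOn.map_mul n1 t4, ← s1.homOn.map_mul t4 n1, t2.2 n n1.1]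
  obtain ⟨t, t1, t2, t3, -⟩ := exists_central_mod (isPGroup_of_le hS (normalizerIn_le S Q)) le_rfl
    inf_le_right Subgroup.le_normalizer (lt_normalizerIn hS hlt).not_ge
  have hle : F.stab Q ≤ autStab (zc Q) := fun σ hσ =>
    have h := (mem_stab hQ.le).1 hσ
    ((h.isMap.mono inf_le_left).iso_of_img (img_zc h)).mem_autStab
  have hV := isPGroup_of_le hS ((inf_le_left : zc Q ≤ Q).trans hQ.le)
  have hcj := (F.iso_cj hQ.le t1.1 t1.2).mem_stab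
  have ht : cj t ∈ trivOn ((frattini (zc Q)).map (zc Q).subtype) (zc Q) := by
    refine ⟨hle hcj, fun v hv => ?_⟩
    have hw : cj t v ∈ zc Q := iso_mem_zc (F.iso_cj hQ.le t1.1 t1.2) hv
    have e1 : cj t (cj t v) = v := by
      rw [← Perm.mul_apply, ← map_mul, ← sq, cj_apply, hv.2 _ t3, mul_inv_cancel_right]
    have hz : cj t v * v ∈ zc S := key _ (Subgroup.mul_mem _ hw hv) t t1.1 t2 (by
      rw [← mul_inv_eq_iff_eq_mul, ← cj_apply, (homOn_cj t ⊤).map_mul trivial trivial, e1]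
      exact hw.2 v hv.1)
    obtain ⟨c, c1, c2⟩ := exists_pow_of_mul7 hF hS h (q := 2) (S.inv_mem t1.1) hz
      (S.mul_mem (S.inv_mem t1.1) (hQ.le hw.1)) (by
        have e2 : t * t * v = v * (t * t) := by simpa [sq] using hv.2 _ t3
        simp only [sq, cj_apply]
        rw [show t⁻¹ * (t * v * t⁻¹) * (t⁻¹ * (t * v * t⁻¹)) = v * (t * t)⁻¹ * (t * v * t⁻¹) by group,
          show v * (t * t)⁻¹ = (t * t)⁻¹ * v by
            rw [eq_inv_mul_iff_mul_eq, ← mul_assoc, e2, mul_inv_cancel_right]]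
        have e3 := hw.2 v hv.1
        rw [cj_apply] at e3
        rw [← e3]
        group)
    refine ⟨(⟨c, hZ c1⟩ * ⟨v, hv⟩⁻¹) ^ 2, pow_mem_frattini hV _, ?_⟩
    show (c * v⁻¹) ^ 2 = _
    rw [(show Commute c v⁻¹ from (c1.2 _ (S.inv_mem (hQ.le hv.1))).symm).mul_pow, ← c2, sq,
      ← mul_assoc, mul_inv_cancel_right]
    exact (hw.2 _ (Q.inv_mem hv.1)).symm
  have hinv : ∀ τ ∈ F.stab Q, ∀ k ∈ F.stab Q ⊓ trivOn ((frattini (zc Q)).map (zc Q).subtype) (zc Q),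
      τ * k * τ⁻¹ ∈ F.stab Q ⊓ trivOn ((frattini (zc Q)).map (zc Q).subtype) (zc Q) := fun τ hτ k hk =>
    ⟨Subgroup.mul_mem _ (Subgroup.mul_mem _ hτ hk.1) (Subgroup.inv_mem _ hτ),
      conj_mem_trivOn hk.2 (hle hτ) fun x hx _ => apply_mem_of_characteristic (by
        rw [Subgroup.subgroupOf, Subgroup.comap_map_eq_self_of_injective (zc Q).subtype_injective]
        infer_instance) (Subgroup.map_subtype_le _) (hle hτ) hx⟩
  obtain ⟨χ, c1, c2⟩ := ((hQ.isFullyAutomized hF hS).sylMod.of_le (F.finMod_stab hQ.le)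
    (fixP_anti (inf_le_left : zc Q ≤ Q)) ((hle.trans (autStab_le_setStab _)).trans
    (setStab_le_normalizer_fixP _))).conj (F.stab Q ⊓
      trivOn ((frattini (zc Q)).map (zc Q).subtype) (zc Q)) inf_le_left fun k hk => by
    obtain ⟨l, hl⟩ := aut_pow_eq_one_of_frattini hV (resAut (zc Q) k) fun x => by
      obtain ⟨y, y1, y2⟩ := hk.2.2 x x.2
      have : y = x⁻¹ * resAut (zc Q) k x := Subtype.ext (by
        rw [Subgroup.coe_mul, resAut_apply hk.2.1]; exact y2)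
      exact this ▸ y1
    exact ⟨l, (H8.resAut_pow_eq_one_iff hk.2.1 _).1 hl⟩
  refine hn fun v hv => ?_
  obtain ⟨σ, s1, s2⟩ := hconj v hv
  obtain ⟨u, u1, u2⟩ := c2 _ (hinv _ (Subgroup.inv_mem _ c1) _ (hinv _ s1.mem_stab _ ⟨hcj, ht⟩))
  obtain ⟨g, g1, -, g3⟩ := Fus.mem_innS.1 u1
  have := inv_mul_mem_fixP.1 u2 _ (hZ s2)
  rw [g3 _ (hZ s2).1, s2.2 g g1, mul_inv_cancel_right] at this
  refine key v hv t t1.1 t2 (mul_inv_eq_iff_eq_mul.1 (σ.injective ?_))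
  simpa using this

end Cfsg.FusionSystem
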