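import Cfsg.Agent.H9.Cent
import Cfsg.Agent.H8.Tate
import Cfsg.Agent.H8.AutP
import Cfsg.Agent.H7.Crit

/-!
# A nilpotency criterion through weakly embedded subgroups
-/

set_option autoImplicit false

open Equiv

namespace Cfsg.FusionSystem

open Cfsg.Fus Cfsg.Agent

universe u

variable {Ω : Type u} [Group Ω] {S A B N P Q R X Y : Subgroup Ω} {F : FusionSystem S} {p k : ℕ}
  {ρ σ : Perm Ω}

theorem exists_between7 [hp : Fact p.Prime] [Finite B] (hB : IsPGroup p B) (hA : A ≤ B)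
    (h1 : Nat.card A ≤ p ^ k) (h2 : p ^ k ≤ Nat.card B) : ∃ Q, A ≤ Q ∧ Q ≤ B ∧ Nat.card Q = p ^ k := by
  obtain ⟨n, hn⟩ := hB.exists_card_eq
  obtain ⟨m, hm⟩ := (hB.to_subgroup (A.subgroupOf B)).exists_card_eq
  have hc : Nat.card (A.subgroupOf B) = Nat.card A := Nat.card_congr (Subgroup.subgroupOfEquivOfLe hA).toEquiv
  obtain ⟨K, k1, k2⟩ := Sylow.exists_subgroup_card_pow_prime_le p (m := k) (hn ▸ pow_dvd_pow p
    ((Nat.pow_le_pow_iff_right hp.out.one_lt).1 (hn ▸ h2))) _ hm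
    ((Nat.pow_le_pow_iff_right hp.out.one_lt).1 (hm ▸ hc ▸ h1))
  exact ⟨K.map B.subtype, fun a ha => ⟨⟨a, hA ha⟩, k2 ha, rfl⟩, Subgroup.map_subtype_le K,
    (Subgroup.card_map_of_injective B.subtype_injective).trans k1⟩

theorem card_inf_mul7 [Fact p.Prime] [Finite S] (hS : IsPGroup p S) {M : Subgroup S} (hM : IsCoatom M)
    (hR : R ≤ S) (h : ¬ R ≤ M.map S.subtype) :
    Nat.card (R ⊓ M.map S.subtype : Subgroup Ω) * p = Nat.card R := by
  have := H8.coatom_normal hS hM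
  have h1 : M ⊔ R.subgroupOf S = ⊤ := hM.2 _ (lt_of_le_not_ge le_sup_left fun h' =>
    h fun x hx => ⟨⟨x, hR hx⟩, h' (Subgroup.mem_sup_right hx), rfl⟩)
  have h2 := Subgroup.relIndex_sup_left (R.subgroupOf S) M
  rw [h1, Subgroup.relIndex_top_right, H8.coatom_index hS hM] at h2
  have h3 : (R ⊓ M.map S.subtype).relIndex R = p := by
    rw [Subgroup.inf_relIndex_left, h2, ← Subgroup.relIndex_subgroupOf hR, Subgroup.subgroupOf,
      Subgroup.comap_map_eq_self_of_injective S.subtype_injective]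
  rw [← h3, Subgroup.relIndex, ← Subgroup.card_mul_index ((R ⊓ M.map S.subtype).subgroupOf R),
    Nat.card_congr (Subgroup.subgroupOfEquivOfLe inf_le_left).toEquiv]

/-- The hypothesis of the criterion, for subgroups of order `p ^ k`. -/
structure WE (F : FusionSystem S) (p k : ℕ) : Prop where
  w : ∀ Q ≤ S, Nat.card Q = p ^ k →
    ∃ P, F.StronglyClosed P ∧ F.StronglyClosed (Q ⊔ P) ∧ F.StronglyClosed (Q ⊓ P)
  n : ∀ (H X : Subgroup Ω) (ρ : Perm Ω), H ≤ X → X ≤ Subgroup.normalizer (H : Set Ω) →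
    Nat.card H = p ^ k → H8.PEl F p X ρ → ρ ∈ setStab H → ρ ∈ fixP X

variable [hp : Fact p.Prime] [Finite S]

theorem WE.fix (h : F.WE p k) (hS : IsPGroup p S) (hX : p ^ k ≤ Nat.card X) (hρ : H8.PEl F p X ρ) :
    ρ ∈ fixP X := by
  by_contra hρ'
  have hXS := hρ.iso.le_left
  have := finite_of_le hXS
  let C : Subgroup Ω → Prop := fun A => A ≤ X ∧ (∀ g ∈ X, ∀ a ∈ A, cj g a ∈ A) ∧ ∀ a ∈ A, ρ a ∈ A
  have no : ∀ A, C A → Nat.card A ≠ p ^ k := fun A hA e =>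
    have := finite_of_le hA.1
    hρ' (h.n A X ρ hA.1 (le_normalizer_of_conj_mem9 hA.2.1) e hρ (mem_setStab_of_finite hA.2.2))
  have hsc : ∀ P B, F.StronglyClosed P → C B → C (P ⊓ B) := fun P B hP hB =>
    ⟨inf_le_right.trans hB.1, fun g hg a ha => ⟨hP.conj_mem (hXS hg) ha.1, hB.2.1 g hg a ha.2⟩,
      fun a ha => ⟨hP.mem hρ.iso.isMap (hB.1 ha.2) ha.1, hB.2.2 a ha.2⟩⟩
  have hsup : ∀ A B, C A → C B → C (A ⊔ B) := fun A B hA hB =>
    ⟨sup_le hA.1 hB.1, fun g hg => (homOn_cj g _).mapsTo_sup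
      (fun a ha => Subgroup.mem_sup_left (hA.2.1 g hg a ha))
      fun a ha => Subgroup.mem_sup_right (hB.2.1 g hg a ha),
      (hρ.iso.homOn.mono (sup_le hA.1 hB.1)).mapsTo_sup
      (fun a ha => Subgroup.mem_sup_left (hA.2.2 a ha)) fun a ha => Subgroup.mem_sup_right (hB.2.2 a ha)⟩
  have hX' : C X := ⟨le_rfl, fun g hg a ha => X.mul_mem (X.mul_mem hg ha) (X.inv_mem hg),
    fun a ha => hρ.iso.mem ha⟩
  obtain ⟨A, -, a1, ⟨a2, a3⟩, a4⟩ := exists_maximal_ge (S := X)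
    (𝒜 := fun A => C A ∧ Nat.card A ≤ p ^ k) bot_le
    ⟨by simpa using hsc ⊥ X F.stronglyClosed_bot hX', by simpa using Nat.one_le_pow _ _ hp.out.pos⟩
  obtain ⟨B, b1, ⟨b2, b3⟩, b4⟩ := exists_minimal_le (S := X) (𝒜 := fun B => C B ∧ A < B) le_rfl
    ⟨hX', lt_of_le_of_ne a1 fun e => no X hX' (le_antisymm (e ▸ a3) hX)⟩
  have := finite_of_le b1
  obtain ⟨Q, q1, q2, q3⟩ := exists_between7 (isPGroup_of_le hS (b1.trans hXS)) b3.le a3
    (le_of_not_ge fun h' => a4 B b3 b1 ⟨b2, h'⟩)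
  obtain ⟨P, p1, p2, p3⟩ := h.w Q (q2.trans (b1.trans hXS)) q3
  refine no Q ?_ q3
  by_cases hc : P ⊓ B ≤ A
  · have := hsc _ B p2 b2
    rwa [sup_inf_eq9 q2 ((q2.trans (b1.trans hXS)).trans p1.le_normalizer),
      sup_eq_left.2 (hc.trans q1)] at this
  · have e : A ⊔ P ⊓ B = B := by
      by_contra e
      exact b4 _ (lt_of_le_of_ne (sup_le b3.le inf_le_right) e)
        ⟨hsup _ _ a2 (hsc P B p1 b2), lt_of_le_not_ge le_sup_left fun h' => hc (le_sup_right.trans h')⟩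
    have h1 := sup_inf_eq9 (C := P ⊓ B) q1 (le_normalizer_of_conj_mem9 fun g hg =>
      (hsc P B p1 b2).2.1 g (a1 hg))
    have h2 := hsup _ _ a2 (hsc _ B p3 b2)
    rwa [inf_right_comm, inf_assoc, inf_comm B, inf_comm Q, ← h1, e, inf_eq_right.2 q2] at h2

theorem WE.fix_of_ext (h : F.WE p k) (hS : IsPGroup p S) (hρ : H8.PEl F p X ρ) (hσ : F.Iso Y Y σ)
    (hY : p ^ k ≤ Nat.card Y) (hXY : X ≤ Y) (e : ∀ x ∈ X, σ x = ρ x) : ρ ∈ fixP X := by
  obtain ⟨m, hm, hm'⟩ := hρ.2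
  obtain ⟨l, l1, l2⟩ := H8.exists_pEl_pow (P := X) hσ hm fun x hx =>
    (H8.pow_mem_fixP_congr hρ.iso.mem_setStab e m x hx).trans (hm' x hx)
  intro x hx
  rw [← e x hx, ← l2 x hx, h.fix hS hY l1 x (hXY hx)]

theorem WE.fix_of_disjoint (h : F.WE p k) (hF : F.IsSaturated p) (hS : IsPGroup p S)
    (hN : F.StronglyClosed N) (hP : F.StronglyClosed P) (hd : N ⊓ P = ⊥) (hc : p ^ k ≤ Nat.card P)
    (hX : X ≤ N) (hρ : H8.PEl F p X ρ) : ρ ∈ fixP X := by
  obtain ⟨τ, t1, t2⟩ := hP.exists_ext_of_cent hN (fun n hn => ⟨hN.le hn, fun x hx => by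
    have : x * n * x⁻¹ * n⁻¹ ∈ N ⊓ P := ⟨N.mul_mem (hN.conj_mem (hP.le hx) hn) (N.inv_mem hn), by
      have := P.mul_mem hx (hP.conj_mem (hN.le hn) (P.inv_mem hx))
      simpa [mul_assoc] using this⟩
    rw [hd, Subgroup.mem_bot, mul_inv_eq_one, mul_inv_eq_iff_eq_mul] at this
    exact this⟩) hF hS hX hρ.iso.isMap
  have := finite_of_le t1.le
  exact h.fix_of_ext hS hρ (t1.iso_self (t1.homOn.mapsTo_sup
    (fun x hx => Subgroup.mem_sup_left (t2 x hx ▸ hρ.iso.mem hx)) fun x hx =>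
      Subgroup.mem_sup_right (hP.mem t1 (Subgroup.mem_sup_right hx) hx)))
    (hc.trans (Subgroup.card_le_of_le le_sup_right)) le_sup_left t2

omit hp [Finite S] in
theorem IsFactorSystem.card_pre7 {Ω' : Type*} [Group Ω'] {S' Q' : Subgroup Ω'} {θ : S →* Ω'}
    {D : FusionSystem S'} (h : F.IsFactorSystem A θ D) (hQ : Q' ≤ S') :
    Nat.card (preimageAlong θ Q') = Nat.card A * Nat.card Q' := by
  rw [← h.ker_eq, preimageAlong, preimageAlong, Subgroup.card_map_of_injective S.subtype_injective,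
    Subgroup.card_map_of_injective S.subtype_injective,
    ← Subgroup.card_mul_index (θ.domRestrict (Q'.comap θ)).ker, Subgroup.index_ker,
    MonoidHom.domRestrict_range, Subgroup.map_comap_eq_self (hQ.trans h.range_eq.ge),
    MonoidHom.ker_domRestrict,
    Nat.card_congr (Subgroup.subgroupOfEquivOfLe (Subgroup.ker_le_comap θ Q')).toEquiv]
  rfl

theorem WE.factor {Ω' : Type*} [Group Ω'] {S' : Subgroup Ω'} {θ : S →* Ω'} {D : FusionSystem S'}
    {a : ℕ} (h : F.WE p (a + k)) (hD : F.IsFactorSystem A θ D) (hA : F.StronglyClosed A)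
    (ha : Nat.card A = p ^ a) : D.WE p k := by
  refine ⟨fun Q' hQ hc => ?_, fun H X ρ h1 h0 h2 h3 h4 => ?_⟩
  · obtain ⟨P, p1, p2, p3⟩ := h.w _ (preimageAlong_le θ Q') (by rw [hD.card_pre7 hQ, ha, hc, pow_add])
    refine ⟨_, hD.stronglyClosed_img p1, ?_, ?_⟩
    · have := hD.stronglyClosed_img p2
      rwa [((homOn_extFun θ).mono p2.le).img_sup, hD.img_pre hQ] at this
    · convert hD.stronglyClosed_img p3 using 1
      refine le_antisymm (fun y hy => ?_) (le_inf ((img_mono _ inf_le_left).trans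
        (hD.img_pre hQ).le) (img_mono _ inf_le_right))
      obtain ⟨x, hx, rfl⟩ := (mem_img_extFun p1.le).1 hy.2
      exact mem_img_of_mem _ ⟨mem_preimageAlong.2 ⟨p1.le hx, hy.1⟩, hx⟩
  · obtain ⟨σ, s1, s2⟩ := hD.exists_lift_pEl hA.weaklyClosed h3
    have : Finite (preimageAlong θ H) := finite_of_le (preimageAlong_le θ H)
    have h5 := h.n _ _ σ (preimageAlong_mono θ h1) (fun x hx => mem_normalizer_preimageAlong
      (mem_preimageAlong.1 hx).1 (h0 (mem_preimageAlong.1 hx).2))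
      (by rw [hD.card_pre7 (h1.trans h3.iso.le_left), ha, h2, pow_add]) s1
      (mem_setStab_of_finite fun x hx => by
        have hx' := preimageAlong_mono θ h1 hx
        refine mem_preimageAlong.2 ⟨s1.iso.isMap.mem hx', ?_⟩
        rw [← s2 x hx']
        exact (h4 _).2 (mem_preimageAlong.1 hx).2)
    intro y hy
    obtain ⟨x, hx, rfl⟩ := hD.exists_eq h3.iso.le_left hy
    rw [s2 x hx, h5 x hx]

omit hp in
theorem eq_of_le_of_card_ge7 (hB : B ≤ S) (h : A ≤ B) (hc : Nat.card B ≤ Nat.card A) : A = B :=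
  have := finite_of_le hB
  Subgroup.eq_of_le_of_card_ge h hc

/-- The case where the hyperfocal subgroup lies in every small strongly closed subgroup. -/
theorem WE.hyp_eq_bot_of_small (h : F.WE p k) (hF : F.IsSaturated p) (hS : IsPGroup p S)
    (hk : p ^ k < Nat.card S) (hU : Nat.card (F.hyperfocalSubgroup p) < p ^ k)
    (h1 : ∀ A, F.StronglyClosed A → A ≠ ⊥ → Nat.card A < p ^ k → F.hyperfocalSubgroup p ≤ A) :
    F.hyperfocalSubgroup p = ⊥ := by
  by_contra hne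
  have hsc := H8.stronglyClosed_hyp hF hS
  have := finite_of_le hsc.le
  have fin : ¬ ∀ X ρ, X ≤ F.hyperfocalSubgroup p → H8.PEl F p X ρ → ρ ∈ fixP X := fun h' =>
    hne (eq_bot_iff.2 (H8.hyp_le_of_forall_le hS fun X ρ a b x hx => by simp [h' X ρ a b x hx]))
  have hmin : ∀ A, F.StronglyClosed A → ¬ F.hyperfocalSubgroup p ≤ A →
      F.hyperfocalSubgroup p ⊓ A = ⊥ := fun A hA h' => by
    by_contra h2
    exact h' ((h1 _ (hsc.inf hA) h2 ((Subgroup.card_le_of_le inf_le_left).trans_lt hU)).trans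
      inf_le_right)
  obtain ⟨M, m1, m2⟩ : ∃ M : Subgroup S, IsCoatom M ∧ ¬ F.hyperfocalSubgroup p ≤ M.map S.subtype := by
    by_contra! h'
    refine hne ?_
    rw [H8.eq_inner_of_focal_le_frattini hF hS, H8.hyp_inner hS]
    rw [H8.focal_eq_hyp_sup hF hS]
    refine sup_le (fun x hx => H8.mem_map_frattini_iff.2 ⟨hsc.le hx, fun M hM => ?_⟩)
      (H8.commutator_le_map_frattini hS)
    obtain ⟨y, hy, rfl⟩ := h' M hM hx
    exact hy
  obtain ⟨n, hn⟩ := hS.exists_card_eq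
  obtain ⟨R, r1, r2, r3⟩ := exists_between7 (k := k + 1) hS hsc.le
    (hU.le.trans (Nat.pow_le_pow_right hp.out.pos k.le_succ))
    (hn ▸ Nat.pow_le_pow_right hp.out.pos ((Nat.pow_lt_pow_iff_right hp.out.one_lt).1 (hn ▸ hk)))
  have q1 := card_inf_mul7 hS m1 r2 fun h' => m2 (r1.trans h')
  rw [r3, pow_succ, mul_left_inj' hp.out.ne_zero] at q1
  have q2 : ¬ F.hyperfocalSubgroup p ≤ R ⊓ M.map S.subtype := fun h' => m2 (h'.trans inf_le_right)
  obtain ⟨P, p1, p2, p3⟩ := h.w _ (inf_le_left.trans r2) q1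
  have q3 : F.hyperfocalSubgroup p ⊓ (R ⊓ M.map S.subtype) = ⊥ := by
    by_cases hP : F.hyperfocalSubgroup p ≤ P
    · exact eq_bot_iff.2 fun x hx => (hmin _ p3 fun h' => q2 (h'.trans inf_le_left)).le
        ⟨hx.1, hx.2, hP hx.1⟩
    by_cases hP' : P = ⊥
    · exact hmin _ (by simpa [hP'] using p2) q2
    exact (fin fun X ρ => h.fix_of_disjoint hF hS hsc p1 (hmin P p1 hP)
      (le_of_not_gt fun h' => hP (h1 P p1 hP' h'))).elim
  rw [← inf_assoc, inf_eq_left.2 r1] at q3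
  have q4 := card_inf_mul7 hS m1 hsc.le m2
  rw [q3, Subgroup.card_bot, one_mul] at q4
  obtain ⟨z, z1, z2, z3, z4⟩ := exists_central_of_ne_bot hS le_rfl hsc.le hsc.le_normalizer hne
  have q5 : S ≤ Subgroup.centralizer (F.hyperfocalSubgroup p : Set Ω) := by
    rw [← eq_of_le_of_card_ge7 hsc.le (Subgroup.zpowers_le.2 z1)
      (by rw [card_zpowers_eq_of_pow z2 z3, ← q4])]
    exact zpowers_le_centralizer_iff.2 z4
  refine fin fun X ρ hX hρ => ?_
  have q6 := q5.trans (Subgroup.centralizer_le hX)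
  obtain ⟨τ, t1, t2⟩ := ((F.isFullyNormalized_of_le_normalizer (hX.trans hsc.le)
    (q6.trans (Subgroup.centralizer_le_normalizer _))).isReceptive hF hS).exists_ext_centralizer hρ.iso
  have t3 := t1.mono (le_sup_of_le_right (le_inf le_rfl q6) : S ≤ _)
  exact h.fix_of_ext hS hρ (t3.iso_self fun x hx => t3.mem hx) hk.le (hX.trans hsc.le) t2

theorem isPMod_of_pEl7 {K : Subgroup (Perm Ω)} (hX : X ≤ S) (hK : K ≤ F.stab X)
    (h : ∀ ρ ∈ K, H8.PEl F p X ρ → ρ ∈ fixP X) : IsPMod p (fixP X) K := fun σ hσ => by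
  have h1 := (mem_stab hX).1 (hK hσ)
  obtain ⟨n, n0, hn⟩ := H8.exists_pow_mem_fixP h1
  obtain ⟨l, m, hm, rfl⟩ := Nat.exists_eq_pow_mul_and_not_dvd n0 p hp.out.ne_one
  exact ⟨l, h _ (K.pow_mem hσ _) ⟨h1.pow _, m, ((Nat.Prime.coprime_iff_not_dvd hp.out).2 hm).symm,
    by rwa [← pow_mul]⟩⟩

/-- The case where there is no small strongly closed subgroup. -/
theorem WE.hyp_eq_bot_of_large (h : F.WE p k) (hF : F.IsSaturated p) (hS : IsPGroup p S)
    (hk : p ^ k < Nat.card S) (hk0 : 0 < k)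
    (h1 : ∀ A, F.StronglyClosed A → A ≠ ⊥ → p ^ k ≤ Nat.card A) : F.hyperfocalSubgroup p = ⊥ := by
  suffices H : ∀ X, F.IsEssential p X → p ^ k ≤ Nat.card X by
    rw [hF.eq_inner_of_essential hS fun X hX => ?_, H8.hyp_inner hS]
    have hXS : X ≤ S := hX.elim le_of_eq fun h => h.le
    exact isPMod_of_pEl7 hXS le_rfl fun ρ _ => h.fix hS (hX.elim (fun e => e ▸ hk.le) (H X))
  intro X hX
  have hS0 : S ≠ ⊥ := fun e => by
    rw [e, Subgroup.card_bot] at hk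
    exact hk.not_ge (Nat.one_le_pow _ _ hp.out.pos)
  obtain ⟨N, -, ⟨n1, n2⟩, n3⟩ := exists_minimal_le (S := S)
    (𝒜 := fun N => F.StronglyClosed N ∧ N ≠ ⊥) le_rfl ⟨F.stronglyClosed_top, hS0⟩
  have := finite_of_le n1.le
  have := finite_of_le hX.le
  have hmin : ∀ A, F.StronglyClosed A → ¬ N ≤ A → N ⊓ A = ⊥ := fun A hA h' => by
    by_contra h2
    exact n3 _ (lt_of_le_not_ge inf_le_left fun h3 => h' (h3.trans inf_le_right)) ⟨n1.inf hA, h2⟩
  have hpk : 1 < p ^ k := Nat.one_lt_pow hk0.ne' hp.out.one_lt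
  have hN : Nat.card N = p ^ k := by
    obtain ⟨Q, -, q2, q3⟩ := exists_between7 (isPGroup_of_le hS n1.le) bot_le
      (by simpa using hpk.le) (h1 N n1 n2)
    obtain ⟨P, p1, p2, p3⟩ := h.w Q (q2.trans n1.le) q3
    have q4 : F.StronglyClosed Q := by
      by_cases hP : N ≤ P
      · rwa [inf_eq_left.2 (q2.trans hP)] at p3
      · have := p2.inf n1
        rwa [sup_inf_eq9 q2 ((q2.trans n1.le).trans p1.le_normalizer), inf_comm, hmin P p1 hP,
          sup_bot_eq] at this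
    rw [← q3]
    by_contra hc
    refine n3 Q (lt_of_le_of_ne q2 fun e => hc (by rw [e])) ⟨q4, fun e => ?_⟩
    rw [e, Subgroup.card_bot] at q3
    exact hpk.ne q3
  refine hN ▸ Subgroup.card_le_of_le (?_ : N ≤ X)
  by_cases hab : ⁅N, N⁆ = ⊥
  · exact (n1.isNormal_of_comm hF hS hab).le_of_essential hS hX
  rw [commutator_eq_bot_iff_comm] at hab
  obtain ⟨n, hn⟩ := hS.exists_card_eq
  obtain ⟨R, r1, r2, r3⟩ := exists_between7 (k := k + 1) hS n1.le
    (hN.le.trans (Nat.pow_le_pow_right hp.out.pos k.le_succ))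
    (hn ▸ Nat.pow_le_pow_right hp.out.pos ((Nat.pow_lt_pow_iff_right hp.out.one_lt).1 (hn ▸ hk)))
  have := finite_of_le r2
  obtain ⟨x, x1, x2⟩ := SetLike.exists_of_lt (lt_of_le_of_ne r1 fun e => by
    rw [← e, hN] at r3
    exact (Nat.pow_lt_pow_right hp.out.one_lt k.lt_succ_self).ne r3)
  have x3 := Subgroup.zpowers_le.2 x1
  obtain ⟨Q, q1, q2, q3⟩ := exists_between7 (k := k) (isPGroup_of_le hS r2) x3 (by
    have := finite_of_le x3
    obtain ⟨m, hm⟩ := (isPGroup_of_le hS (x3.trans r2)).exists_card_eq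
    have h2 := card_lt_of_lt_of_finite (lt_of_le_of_ne x3 fun e => hab (by
      have : IsMulCommutative R := e ▸ inferInstance
      exact ⟨⟨fun a b => Subtype.ext
        (congrArg Subtype.val (mul_comm' (⟨a, r1 a.2⟩ : R) ⟨b, r1 b.2⟩) :)⟩⟩))
    rw [hm, r3, Nat.pow_lt_pow_iff_right hp.out.one_lt] at h2
    exact hm ▸ Nat.pow_le_pow_right hp.out.pos (Nat.lt_succ_iff.1 h2))
    (r3 ▸ Nat.pow_le_pow_right hp.out.pos k.le_succ)
  have q4 : ¬ N ≤ Q := fun h' => x2 (eq_of_le_of_card_ge7 (q2.trans r2) h' (q3.trans hN.symm).le ▸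
    q1 (Subgroup.mem_zpowers x))
  have q5 : N ⊓ Q ≠ ⊥ := fun e => by
    have a1 : N.relIndex R = p := by
      have := Subgroup.card_mul_index (N.subgroupOf R)
      rwa [Nat.card_congr (Subgroup.subgroupOfEquivOfLe r1).toEquiv, hN, r3, pow_succ,
        mul_right_inj' (pow_ne_zero _ hp.out.ne_zero)] at this
    have a2 := Subgroup.relIndex_le_of_le_right q2 (a1 ▸ hp.out.ne_zero : N.relIndex R ≠ 0)
    rw [← Subgroup.inf_relIndex_right, e, Subgroup.relIndex_bot_left, q3, a1] at a2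
    have a3 : Nat.card N = p := le_antisymm (hN ▸ a2) (hN ▸ Nat.le_self_pow hk0.ne' p)
    have := isCyclic_of_prime_card a3
    exact hab inferInstance
  obtain ⟨P, p1, p2, p3⟩ := h.w Q (q2.trans r2) q3
  have q6 : ¬ F.StronglyClosed Q := fun h' => q5 (hmin Q h' q4)
  have p4 : Q ⊓ P = ⊥ := by
    by_contra e
    exact q6 (eq_of_le_of_card_ge7 (q2.trans r2) inf_le_left (q3 ▸ h1 _ p3 e) ▸ p3)
  have p5 := fun X ρ => h.fix_of_disjoint (X := X) (ρ := ρ) hF hS n1 p1 (hmin P p1 fun h' =>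
    q5 (eq_bot_iff.2 fun y hy => p4.le ⟨hy.2, h' hy.1⟩)) (h1 P p1 fun e => q6 (by simpa [e] using p2))
  refine hX.isCentric.le_of_radical (hX.isRadical hS) hS n1.le (hX.le.trans n1.le_normalizer)
    fun g hg hg' => le_opStab hX.le (U := F.stab X ⊓ modT X N) inf_le_left
      (isPMod_of_pEl7 hX.le inf_le_left fun ρ hρ hρ' y hy => ?_) (fun τ hτ u hu =>
        ⟨(hτ.conj ((mem_stab hX.le).1 hu.1)).mem_stab, n1.conj_mem_modT hτ hu.2⟩)
      ⟨(F.iso_cj hX.le (n1.le hg) hg').mem_stab, cj_mem_modT hg hg' (hX.le.trans n1.le_normalizer)⟩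
  have : Finite (N ⊓ X : Subgroup Ω) := finite_of_le (inf_le_right : N ⊓ X ≤ X)
  exact hρ'.fix_of_two_step hS (B := N) (fun b b1 b2 => p5 (N ⊓ X) ρ inf_le_left (hρ'.restrict
    inf_le_right (mem_setStab_of_finite fun z hz =>
      ⟨n1.mem hρ'.iso.isMap hz.2 hz.1, hρ'.iso.mem hz.2⟩)) b ⟨b1, b2⟩) hy ((mem_modT.1 hρ.2).2 y hy)

omit [Finite S] in
theorem WE.hyp_eq_bot (n : ℕ) : ∀ {Ω : Type u} [Group Ω] {S : Subgroup Ω} [Finite S]
    {F : FusionSystem S} {k : ℕ}, Nat.card S = n → F.WE p k → F.IsSaturated p → IsPGroup p S →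
    p ^ k < Nat.card S → 0 < k → F.hyperfocalSubgroup p = ⊥ := by
  induction n using Nat.strong_induction_on with | _ n ih => ?_
  intro Ω _ S _ F k hn h hF hS hk hk0
  have h1 : ∀ A, F.StronglyClosed A → A ≠ ⊥ → Nat.card A < p ^ k → F.hyperfocalSubgroup p ≤ A := by
    intro A hA hA' hc
    have := finite_of_le hA.le
    have := hA.normal9
    obtain ⟨D, hD⟩ := F.exists_factorSystem_mk' hA
    obtain ⟨a, ha⟩ := (isPGroup_of_le hS hA.le).exists_card_eq
    rw [ha, Nat.pow_lt_pow_iff_right hp.out.one_lt] at hc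
    obtain ⟨l, rfl⟩ := Nat.exists_eq_add_of_lt hc
    have h2 := hD.card_pre7 le_rfl
    rw [hD.pre_top] at h2
    have h3 := (Subgroup.one_lt_card_iff_ne_bot A).2 hA'
    rw [← hD.img_eq_bot_iff (H8.hyp_le F p), ← hD.hyp_eq hA hF hS]
    refine ih _ ?_ rfl (WE.factor (k := l + 1) h hD hA ha) (hD.isSaturated hA.weaklyClosed hF hS)
      (hD.isPGroup hS) ?_ l.succ_pos
    · rw [← hn, h2]
      exact lt_mul_of_one_lt_left Nat.card_pos h3
    · rw [h2, ha, add_assoc, pow_add] at hk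
      exact lt_of_mul_lt_mul_left hk (Nat.zero_le _)
  by_cases hs : ∀ A, F.StronglyClosed A → A ≠ ⊥ → p ^ k ≤ Nat.card A
  · exact h.hyp_eq_bot_of_large hF hS hk hk0 hs
  push Not at hs
  obtain ⟨A, a1, a2, a3⟩ := hs
  have := finite_of_le a1.le
  exact h.hyp_eq_bot_of_small hF hS hk ((Subgroup.card_le_of_le (h1 A a1 a2 a3)).trans_lt a3) h1

end Cfsg.FusionSystem
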